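/-
Helper library (helper29): Alperin's lemma on maximal normal abelian subgroups of exponent `p ^ n`
(generalisation of helper24's `exists_central_mod_of_order_p`).
-/
import Cfsg.Agent.Lib.Helper24.PGroup2

set_option autoImplicit false

namespace Cfsg.Agent.Lib.Helper29

open Cfsg.Agent.Lib.Helper24
open scoped commutatorElement

variable {G : Type*} [Group G]

theorem dvd_choose_two_of_pow_ne_two {p n : ℕ} (hp : p.Prime) (hn0 : n ≠ 0) (hn : p ^ n ≠ 2) :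
    p ∣ (p ^ n).choose 2 := by
  have h : (p ^ n).choose 2 * 2 = p ^ n * (p ^ n - 1) := by
    rw [Nat.choose_two_right, Nat.div_mul_cancel (Nat.even_mul_pred_self _).two_dvd]
  by_cases hp2 : p = 2
  · subst hp2
    obtain ⟨m, rfl⟩ : ∃ m, n = m + 2 := by
      rcases n with _ | _ | m
      · exact absurd rfl hn0
      · exact absurd (by norm_num) hn
      · exact ⟨m, rfl⟩
    have h2 : (2 ^ (m + 2)).choose 2 * 2 = (2 * (2 ^ m * (2 ^ (m + 2) - 1))) * 2 := by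
      rw [h, pow_add]; ring
    exact ⟨_, Nat.eq_of_mul_eq_mul_right (by norm_num) h2⟩
  · have h1 : p ∣ (p ^ n).choose 2 * 2 := by
      rw [h]; exact Dvd.dvd.mul_right (dvd_pow_self p hn0) _
    rcases (Nat.Prime.dvd_mul hp).1 h1 with h2 | h2
    · exact h2
    · exact absurd ((Nat.prime_dvd_prime_iff_eq hp Nat.prime_two).1 h2) hp2

/-- `⁅b, a⁆ ^ p = 1` if `⁅b, a⁆` commutes with `a`, `b` and `b ^ p` commutes with `a`. -/
theorem commutator_pow_eq_one_of_commute (a b : G) (h2 : Commute ⁅b, a⁆ a) (h3 : Commute ⁅b, a⁆ b)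
    (p : ℕ) (hbp : Commute (b ^ p) a) : ⁅b, a⁆ ^ p = 1 := by
  have h1 := pow_mul_eq_of_commute a b h2 h3 p
  rw [hbp.eq, mul_assoc] at h1
  exact (mul_eq_right.1 h1.symm)

/-- The subgroup of elements `c ∈ M ∩ C(E)` with `[c, M] ⊆ E`, `c ^ q = 1` and `c ^ p ∈ E`. -/
def omegaCentralModPow (p q : ℕ) (hq : p ∣ q.choose 2) (E M : Subgroup G)
    (hME : M ≤ Subgroup.normalizer (E : Set G)) : Subgroup G where
  carrier := {c | c ∈ M ∧ c ∈ Subgroup.centralizer (E : Set G) ∧ (∀ m ∈ M, ⁅c, m⁆ ∈ E) ∧ c ^ q = 1 ∧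
    c ^ p ∈ E}
  one_mem' := ⟨M.one_mem, Subgroup.one_mem _, fun m _ => by simp [E.one_mem], one_pow q,
    by rw [one_pow]; exact E.one_mem⟩
  mul_mem' := by
    rintro a b ⟨haM, haE, hac, haq, hap⟩ ⟨hbM, hbE, hbc, hbq, hbp⟩
    have h1 : ⁅b, a⁆ ∈ E := hbc a haM
    have h2 : Commute ⁅b, a⁆ a := (Subgroup.mem_centralizer_iff.1 haE) _ h1
    have h3 : Commute ⁅b, a⁆ b := (Subgroup.mem_centralizer_iff.1 hbE) _ h1
    have h4 : ⁅b, a⁆ ^ p = 1 :=
      commutator_pow_eq_one_of_commute a b h2 h3 p ((Subgroup.mem_centralizer_iff.1 haE) _ hbp)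
    refine ⟨M.mul_mem haM hbM, Subgroup.mul_mem _ haE hbE, fun m hm => ?_, ?_, ?_⟩
    · rw [commutatorElement_mul_left_eq_conj_mul]
      refine E.mul_mem ?_ (hac m hm)
      exact (Subgroup.le_normalizer_iff.1 hME) a haM _ (hbc m hm)
    · obtain ⟨k, hk⟩ := hq
      rw [mul_pow_of_commute a b h2 h3 q, haq, hbq, hk, pow_mul, h4]; simp
    · rw [mul_pow_of_commute a b h2 h3 p]
      exact E.mul_mem (E.mul_mem hap hbp) (E.pow_mem h1 _)
  inv_mem' := by
    rintro a ⟨haM, haE, hac, haq, hap⟩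
    refine ⟨M.inv_mem haM, Subgroup.inv_mem _ haE, fun m hm => ?_, by rw [inv_pow, haq, inv_one],
      by rw [inv_pow]; exact E.inv_mem hap⟩
    rw [commutatorElement_inv_left]
    have h1 : ⁅m, a⁆ ∈ E := by rw [← commutatorElement_inv]; exact E.inv_mem (hac m hm)
    have := (Subgroup.le_normalizer_iff.1 hME) a⁻¹ (M.inv_mem haM) _ h1
    simpa using this

/-- **Key lemma**.  Let `P` be a `p`-group normalizing its subgroup `E`, and `p ∣ C(q, 2)`.  If some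
`x ∈ C_P(E)`, `x ∉ E`, satisfies `x ^ q = 1`, `x ^ p ∈ E`, then there is such an element that moreover
is central modulo `E` in `P`. -/
theorem exists_central_mod_of_pow [Finite G] (p : ℕ) [Fact p.Prime] (q : ℕ) (hq : p ∣ q.choose 2)
    (E : Subgroup G) (P : Subgroup G) (hP : IsPGroup p P) (hEP : E ≤ P)
    (hPE : P ≤ Subgroup.normalizer (E : Set G))
    (x : G) (hxP : x ∈ P) (hxc : x ∈ Subgroup.centralizer (E : Set G)) (hxE : x ∉ E)
    (hxq : x ^ q = 1) (hxp : x ^ p ∈ E) :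
    ∃ f ∈ P, f ∈ Subgroup.centralizer (E : Set G) ∧ f ∉ E ∧ f ^ q = 1 ∧ f ^ p ∈ E ∧
      ∀ g ∈ P, ⁅f, g⁆ ∈ E := by
  induction hn : Nat.card P using Nat.strong_induction_on generalizing P x with
  | _ n ih =>
  subst hn
  by_cases hall : ∀ g ∈ P, ⁅x, g⁆ ∈ E
  · exact ⟨x, hxP, hxc, hxE, hxq, hxp, hall⟩
  have hH : adjoin E x hxc < P := by
    refine lt_of_le_of_ne (adjoin_le hxc hEP hxP) ?_
    intro h
    apply hall
    intro g hg
    rw [← h] at hg
    obtain ⟨e, he, i, rfl⟩ := hg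
    have hc : Commute e x := (Subgroup.mem_centralizer_iff.1 hxc) e he
    have : Commute x (e * x ^ i) := hc.symm.mul_right ((Commute.refl x).zpow_right i)
    rw [this.commutator_eq]; exact E.one_mem
  obtain ⟨M, hHM, hMP, hPM, -, -, -⟩ := exists_maximal_normal p hP hH
  have hEM : E ≤ M := (le_adjoin E x hxc).trans hHM
  have hME : M ≤ Subgroup.normalizer (E : Set G) := hMP.le.trans hPE
  obtain ⟨f₁, hf₁M, hf₁c, hf₁E, hf₁q, hf₁p, hf₁⟩ := ih _ (card_lt_of_lt hMP) M (hP.to_le hMP.le) hEM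
    hME x (hHM (self_mem_adjoin E x hxc)) hxc hxE hxq hxp rfl
  set W := omegaCentralModPow p q hq E M hME with hW
  have hWP : W ≤ P := fun c hc => hMP.le hc.1
  have hWE : ¬ W ≤ E := fun h => hf₁E (h ⟨hf₁M, hf₁c, hf₁, hf₁q, hf₁p⟩)
  have hPW : P ≤ Subgroup.normalizer (W : Set G) := by
    rw [Subgroup.le_normalizer_iff]
    rintro g hg c ⟨hcM, hcE, hcc, hcq, hcp⟩
    have hginv : g⁻¹ ∈ P := P.inv_mem hg
    refine ⟨(Subgroup.le_normalizer_iff.1 hPM) g hg c hcM, ?_, ?_, by rw [conj_pow, hcq]; group, ?_⟩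
    · rw [Subgroup.mem_centralizer_iff]
      intro e he
      have h1 : g⁻¹ * e * g⁻¹⁻¹ ∈ E := (Subgroup.le_normalizer_iff.1 hPE) g⁻¹ hginv e he
      have h2 : Commute (g⁻¹ * e * g⁻¹⁻¹) c := (Subgroup.mem_centralizer_iff.1 hcE) _ h1
      have h3 : e * (g * c * g⁻¹) = g * ((g⁻¹ * e * g⁻¹⁻¹) * c) * g⁻¹ := by group
      rw [h3, h2.eq]; group
    · intro m hm
      have h1 : g⁻¹ * m * g⁻¹⁻¹ ∈ M := (Subgroup.le_normalizer_iff.1 hPM) g⁻¹ hginv m hm
      have h2 := hcc _ h1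
      have h3 : ⁅g * c * g⁻¹, m⁆ = g * ⁅c, g⁻¹ * m * g⁻¹⁻¹⁆ * g⁻¹ := by
        rw [conjugate_commutatorElement]; congr 1; group
      rw [h3]
      exact (Subgroup.le_normalizer_iff.1 hPE) g hg _ h2
    · rw [conj_pow]
      exact (Subgroup.le_normalizer_iff.1 hPE) g hg _ hcp
  obtain ⟨f, hfW, hfE, hf⟩ := exists_central_mod hP.isNilpotent hWP hPW hWE
  exact ⟨f, hWP hfW, hfW.2.1, hfE, hfW.2.2.2.1, hfW.2.2.2.2, hf⟩

end Cfsg.Agent.Lib.Helper29
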