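import Mathlib
import Cfsg.Agent.S0200
import Cfsg.Prelude.Def_Solvable

/-! Group theoretic core of Gagola's theorem: a Camina pair `(G,N)` with `N` an elementary abelian
normal `p`-subgroup, centralizers of nonidentity elements of `N` being `p`-groups, `N = O_p(G)`:
then `p` does not divide `|G:N|`. -/

set_option autoImplicit false
set_option linter.unusedSectionVars false

namespace Cfsg.Agent.Lib.Helper29.Gagola

variable {G : Type*} [Group G] [Finite G]

/-- if `g` acts fixed point freely on the normal subgroup `N`, `m ↦ m * (g m⁻¹ g⁻¹)` is onto `N`. -/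
lemma exists_twist (N : Subgroup G) [N.Normal]
    (g : G) (hg : ∀ n ∈ N, g * n * g⁻¹ = n → n = 1) (k : G) (hk : k ∈ N) :
    ∃ m ∈ N, m * (g * m⁻¹ * g⁻¹) = k := by
  classical
  let f : N → N := fun m => ⟨m * (g * (m : G)⁻¹ * g⁻¹),
    N.mul_mem m.2 (‹N.Normal›.conj_mem _ (N.inv_mem m.2) g)⟩
  have hinj : Function.Injective f := by
    intro a b hab
    have h1 : (a : G) * (g * (a : G)⁻¹ * g⁻¹) = (b : G) * (g * (b : G)⁻¹ * g⁻¹) :=
      congrArg Subtype.val hab
    have h2 : g * ((b : G)⁻¹ * a) * g⁻¹ = (b : G)⁻¹ * a := by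
      have h3 : (b : G)⁻¹ * a = (g * (b : G)⁻¹ * g⁻¹) * (g * (a : G)⁻¹ * g⁻¹)⁻¹ := by
        rw [eq_mul_inv_iff_mul_eq, mul_assoc, h1]; group
      conv_rhs => rw [h3]
      group
    have h4 := hg _ (N.mul_mem (N.inv_mem b.2) a.2) h2
    apply Subtype.ext
    exact (inv_mul_eq_one.mp h4).symm
  have hsurj : Function.Surjective f := Finite.injective_iff_surjective.mp hinj
  obtain ⟨m, hm⟩ := hsurj ⟨k, hk⟩
  exact ⟨m, m.2, congrArg Subtype.val hm⟩

/-- if `g` has a nontrivial fixed point on `N`, `m ↦ (g m g⁻¹) * m⁻¹` is not onto `N`. -/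
lemma exists_not_twist (N : Subgroup G) [N.Normal]
    (g : G) (n0 : G) (hn0 : n0 ∈ N) (hn1 : n0 ≠ 1) (hfix : g * n0 * g⁻¹ = n0) :
    ∃ k ∈ N, ∀ m ∈ N, g * m * g⁻¹ * m⁻¹ ≠ k := by
  classical
  let f : N → N := fun m => ⟨g * (m : G) * g⁻¹ * (m : G)⁻¹,
    N.mul_mem (‹N.Normal›.conj_mem _ m.2 g) (N.inv_mem m.2)⟩
  have hninj : ¬ Function.Injective f := by
    intro h
    have : f ⟨n0, hn0⟩ = f 1 := by
      apply Subtype.ext
      simp [f, hfix]
    have h2 := h this
    exact hn1 (congrArg Subtype.val h2)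
  have hnsurj : ¬ Function.Surjective f := fun h => hninj (Finite.injective_iff_surjective.mpr h)
  simp only [Function.Surjective, not_forall, not_exists] at hnsurj
  obtain ⟨k, hk⟩ := hnsurj
  exact ⟨k, k.2, fun m hm h => hk ⟨m, hm⟩ (Subtype.ext h)⟩

/-- The standing hypotheses. -/
structure Hyp (p : ℕ) (N : Subgroup G) : Prop where
  pN : IsPGroup p N
  ne : N ≠ ⊥
  ab : ∀ a ∈ N, ∀ b ∈ N, a * b = b * a
  ex : ∀ a ∈ N, a ^ p = 1
  cent : ∀ x ∈ N, x ≠ 1 → IsPGroup p (Subgroup.centralizer ({x} : Set G))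
  cam : ∀ g : G, g ∉ N → ∀ n ∈ N, ∃ x : G, x * g * x⁻¹ = g * n
  conj : ∀ x ∈ N, ∀ y ∈ N, x ≠ 1 → y ≠ 1 → ∃ g : G, g * x * g⁻¹ = y

variable {p : ℕ} [hp : Fact p.Prime] {N : Subgroup G} [N.Normal]

lemma Hyp.fpf (h : Hyp p N) {g : G} (hg1 : g ≠ 1) (hg : (orderOf g).Coprime p) :
    ∀ n ∈ N, g * n * g⁻¹ = n → n = 1 := by
  intro n hn hfix
  by_contra hn1
  have hmem : g ∈ Subgroup.centralizer ({n} : Set G) := by
    rw [Subgroup.mem_centralizer_singleton_iff]
    rw [mul_inv_eq_iff_eq_mul] at hfix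
    exact hfix
  obtain ⟨k, hk⟩ := h.cent n hn hn1 ⟨g, hmem⟩
  have hk' : g ^ (p ^ k) = 1 := by
    have := congrArg Subtype.val hk
    simpa using this
  have h1 : orderOf g ∣ p ^ k := orderOf_dvd_of_pow_eq_one hk'
  have h2 : (orderOf g).Coprime (p ^ k) := Nat.Coprime.pow_right k hg
  have h3 : orderOf g = 1 := Nat.Coprime.eq_one_of_dvd h2 h1
  exact hg1 (orderOf_eq_one_iff.mp h3)

lemma Hyp.exists_ne (h : Hyp p N) : ∃ x ∈ N, x ≠ 1 := by
  by_contra hc
  push Not at hc
  exact h.ne ((Subgroup.eq_bot_iff_forall _).2 hc)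

lemma Hyp.centralizer_le (h : Hyp p N)
    (hcore : ∀ K : Subgroup G, K.Normal → IsPGroup p K → K ≤ N) :
    Subgroup.centralizer (N : Set G) ≤ N := by
  obtain ⟨x, hx, hx1⟩ := h.exists_ne
  apply hcore _ inferInstance
  apply (h.cent x hx hx1).to_le
  apply Subgroup.centralizer_le
  simpa using hx

/-- `p`-elements outside... : a `p`-element `t` with `t ^ p = 1` has a nontrivial fixed point on `N`. -/
lemma Hyp.exists_fixed (h : Hyp p N) (t : G) (ht : t ^ p = 1) :
    ∃ n ∈ N, n ≠ 1 ∧ t * n * t⁻¹ = n := by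
  classical
  let φ : Subgroup.zpowers t →* MulAut N := (MulAut.conjNormal).comp (Subgroup.zpowers t).subtype
  let _ : MulAction (Subgroup.zpowers t) N := MulAction.compHom N φ
  have hsmul : ∀ (a : Subgroup.zpowers t) (n : N), ((a • n : N) : G) = (a : G) * n * (a : G)⁻¹ := by
    intro a n
    rfl
  have hP : IsPGroup p (Subgroup.zpowers t) := by
    intro a
    refine ⟨1, ?_⟩
    obtain ⟨a, k, rfl⟩ := a
    apply Subtype.ext
    simp only [pow_one, Subgroup.coe_pow, Subgroup.coe_one]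
    rw [← zpow_natCast, ← zpow_mul, mul_comm, zpow_mul, zpow_natCast, ht, one_zpow]
  have hcard : p ∣ Nat.card N := by
    obtain ⟨n, hn⟩ := IsPGroup.iff_card.mp h.pN
    rw [hn]
    have : n ≠ 0 := by
      rintro rfl
      rw [pow_zero] at hn
      exact h.ne (Subgroup.card_eq_one.mp hn)
    exact dvd_pow_self p this
  have h1 : (1 : N) ∈ MulAction.fixedPoints (Subgroup.zpowers t) N := by
    intro a
    apply Subtype.ext
    rw [hsmul]
    simp
  obtain ⟨b, hb, hb1⟩ := hP.exists_fixed_point_of_prime_dvd_card_of_fixed_point N hcard h1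
  refine ⟨b, b.2, fun hb' => hb1 (Subtype.ext hb'.symm), ?_⟩
  have := hb ⟨t, Subgroup.mem_zpowers t⟩
  have h2 := congrArg Subtype.val this
  rw [hsmul] at h2
  exact h2

/-- for odd `p` there is an involution. -/
lemma Hyp.exists_invol (h : Hyp p N) (hp2 : p ≠ 2) : ∃ z : G, orderOf z = 2 := by
  obtain ⟨x, hx, hx1⟩ := h.exists_ne
  have hxinv : x⁻¹ ≠ 1 := by simpa using hx1
  obtain ⟨g, hg⟩ := h.conj x hx x⁻¹ (N.inv_mem hx) hx1 hxinv
  have hpodd : Odd p := hp.out.odd_of_ne_two hp2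
  have hne : x⁻¹ ≠ x := by
    intro he
    have h2 : x ^ 2 = 1 := by
      rw [pow_two]
      nth_rewrite 1 [← he]
      simp
    have h3 : orderOf x ∣ 2 := orderOf_dvd_of_pow_eq_one h2
    have h4 : orderOf x ∣ p := orderOf_dvd_of_pow_eq_one (h.ex x hx)
    have h5 : orderOf x ∣ Nat.gcd 2 p := Nat.dvd_gcd h3 h4
    have h6 : Nat.gcd 2 p = 1 := Nat.coprime_two_left.mpr hpodd
    rw [h6] at h5
    exact hx1 (orderOf_eq_one_iff.mp (Nat.dvd_one.mp h5))
  have heven : 2 ∣ orderOf g := by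
    by_contra hodd
    have hodd' : Odd (orderOf g) := by
      rcases Nat.even_or_odd (orderOf g) with he | ho
      · exact absurd he.two_dvd hodd
      · exact ho
    obtain ⟨k, hk⟩ := hodd'
    have hg2 : g ^ 2 * x = x * g ^ 2 := by
      have e1 : g * x = x⁻¹ * g := by
        rw [← hg]; group
      have e2 : g * x⁻¹ = x * g := by
        have : g * x⁻¹ * g⁻¹ = x := by
          have := congrArg Inv.inv hg
          simpa [mul_assoc] using this
        conv_rhs => rw [← this]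
        group
      calc g ^ 2 * x = g * (g * x) := by rw [pow_two, mul_assoc]
        _ = g * (x⁻¹ * g) := by rw [e1]
        _ = (g * x⁻¹) * g := by rw [mul_assoc]
        _ = x * g * g := by rw [e2]
        _ = x * g ^ 2 := by rw [pow_two, mul_assoc]
    have hgg : g = (g ^ 2) ^ (k + 1) := by
      rw [← pow_mul]
      have : 2 * (k + 1) = orderOf g + 1 := by omega
      rw [this, pow_succ, pow_orderOf_eq_one, one_mul]
    have hcomm : Commute g x := by
      rw [hgg]
      exact Commute.pow_left hg2 _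
    have : g * x * g⁻¹ = x := by
      rw [hcomm.eq]; group
    rw [this] at hg
    exact hne hg.symm
  have h2 : 2 ∣ Nat.card G := heven.trans (orderOf_dvd_natCard g)
  have : Fact (Nat.Prime 2) := ⟨Nat.prime_two⟩
  exact exists_prime_orderOf_dvd_card' 2 h2

lemma Hyp.odd_case (h : Hyp p N) (hp2 : p ≠ 2)
    (hcore : ∀ K : Subgroup G, K.Normal → IsPGroup p K → K ≤ N) : ¬ p ∣ N.index := by
  intro hdvd
  obtain ⟨z, hz⟩ := h.exists_invol hp2
  have hz1 : z ≠ 1 := by
    rintro rfl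
    simp at hz
  have hzz : z * z = 1 := by rw [← pow_two, ← hz, pow_orderOf_eq_one]
  have hzinv : z⁻¹ = z := inv_eq_of_mul_eq_one_left hzz
  have hcop : (orderOf z).Coprime p := by
    rw [hz]
    exact Nat.coprime_two_left.mpr (hp.out.odd_of_ne_two hp2)
  have hfz := h.fpf hz1 hcop
  have hinv : ∀ n ∈ N, z * n * z⁻¹ = n⁻¹ := by
    intro n hn
    have hc : z * n * z⁻¹ ∈ N := ‹N.Normal›.conj_mem n hn z
    have hw : n * (z * n * z⁻¹) = 1 := by
      apply hfz _ (N.mul_mem hn hc)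
      have e : z * (n * (z * n * z⁻¹)) * z⁻¹ = (z * n * z⁻¹) * ((z * z) * n * (z * z)⁻¹) := by
        group
      rw [e, hzz]
      simp only [one_mul, inv_one, mul_one]
      exact h.ab _ hc _ hn
    exact eq_inv_of_mul_eq_one_right hw
  have hcomm : ∀ g : G, g * z * g⁻¹ * z⁻¹ ∈ N := by
    intro g
    apply h.centralizer_le hcore
    rw [Subgroup.mem_centralizer_iff]
    intro n hn
    have hn' : n ∈ N := hn
    have e1 : z⁻¹ * n * z = n⁻¹ := by
      have := hinv n hn'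
      rw [hzinv] at this ⊢
      exact this
    have e2 : z * (g⁻¹ * n⁻¹ * g) * z⁻¹ = g⁻¹ * n * g := by
      have hmem : g⁻¹ * n⁻¹ * g ∈ N := by
        have := ‹N.Normal›.conj_mem _ (N.inv_mem hn') g⁻¹
        simpa using this
      rw [hinv _ hmem]
      group
    symm
    calc (g * z * g⁻¹ * z⁻¹) * n = g * z * g⁻¹ * (z⁻¹ * n * z) * z⁻¹ := by group
      _ = g * z * g⁻¹ * n⁻¹ * z⁻¹ := by rw [e1]
      _ = g * (z * (g⁻¹ * n⁻¹ * g) * z⁻¹) * (z * g⁻¹ * z⁻¹) := by group
      _ = g * (g⁻¹ * n * g) * (z * g⁻¹ * z⁻¹) := by rw [e2]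
      _ = n * (g * z * g⁻¹ * z⁻¹) := by group
  have hdec : ∀ g : G, ∃ m ∈ N, (m⁻¹ * g) * z = z * (m⁻¹ * g) := by
    intro g
    obtain ⟨m, hm, hmk⟩ := exists_twist N z hfz _ (hcomm g)
    refine ⟨m, hm, ?_⟩
    have e : m * z * m⁻¹ = g * z * g⁻¹ := by
      have := congrArg (· * z) hmk
      simpa [mul_assoc] using this
    calc m⁻¹ * g * z = m⁻¹ * (g * z * g⁻¹) * g := by group
      _ = m⁻¹ * (m * z * m⁻¹) * g := by rw [e]
      _ = z * (m⁻¹ * g) := by group
  have hcardQ : p ∣ Nat.card (G ⧸ N) := hdvd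
  obtain ⟨tb, htb⟩ := exists_prime_orderOf_dvd_card' p hcardQ
  obtain ⟨t0, rfl⟩ := QuotientGroup.mk_surjective tb
  obtain ⟨m, hm, hmc⟩ := hdec t0
  obtain ⟨t, ht⟩ : ∃ t, t = m⁻¹ * t0 := ⟨_, rfl⟩
  rw [← ht] at hmc
  have htq : (t : G ⧸ N) = (t0 : G ⧸ N) := by
    rw [ht, QuotientGroup.mk_mul, QuotientGroup.mk_inv, (QuotientGroup.eq_one_iff m).2 hm]
    simp
  have htN : t ∉ N := by
    intro hc
    have h1 : (t : G ⧸ N) = 1 := (QuotientGroup.eq_one_iff _).2 hc
    rw [← htq, h1, orderOf_one] at htb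
    exact hp.out.one_lt.ne htb
  have htpN : t ^ p ∈ N := by
    rw [← QuotientGroup.eq_one_iff, QuotientGroup.mk_pow, htq, ← htb, pow_orderOf_eq_one]
  have hzt : Commute z t := hmc.symm
  have htp : t ^ p = 1 := by
    apply hfz _ htpN
    rw [(hzt.pow_right p).eq]
    group
  obtain ⟨n0, hn0, hn01, hfix⟩ := h.exists_fixed t htp
  have hfix' : t⁻¹ * n0 * t⁻¹⁻¹ = n0 := by
    conv_lhs => rw [← hfix]
    group
  obtain ⟨k, hk, hkne⟩ := exists_not_twist N t⁻¹ n0 hn0 hn01 hfix'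
  obtain ⟨x, hx⟩ := h.cam t htN k hk
  obtain ⟨m', hm', hc'⟩ := hdec x
  obtain ⟨c, hc⟩ : ∃ c, c = m'⁻¹ * x := ⟨_, rfl⟩
  rw [← hc] at hc'
  have e1 : c * t * c⁻¹ = m'⁻¹ * (t * k) * m' := by
    rw [← hx, hc]
    group
  have e2 : c * t * c⁻¹ * t⁻¹ ∈ N := by
    rw [e1]
    have e : m'⁻¹ * (t * k) * m' * t⁻¹ = m'⁻¹ * (t * (k * m') * t⁻¹) := by group
    rw [e]
    exact N.mul_mem (N.inv_mem hm') (‹N.Normal›.conj_mem _ (N.mul_mem hk hm') t)
  have e3 : c * t * c⁻¹ * t⁻¹ = 1 := by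
    apply hfz _ e2
    have hzc : Commute z c := hc'.symm
    have hh : Commute z (c * t * c⁻¹ * t⁻¹) :=
      ((hzc.mul_right hzt).mul_right hzc.inv_right).mul_right hzt.inv_right
    rw [hh.eq]
    group
  have e4 : m'⁻¹ * (t * k) * m' = t := by
    rw [← e1]
    exact mul_inv_eq_one.mp e3
  have e5 : t * k = m' * t * m'⁻¹ := by
    calc t * k = m' * (m'⁻¹ * (t * k) * m') * m'⁻¹ := by group
      _ = _ := by rw [e4]
  apply hkne m' hm'
  calc t⁻¹ * m' * t⁻¹⁻¹ * m'⁻¹ = t⁻¹ * (m' * t * m'⁻¹) := by group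
    _ = t⁻¹ * (t * k) := by rw [e5]
    _ = k := by group

lemma Hyp.two_case {N : Subgroup G} [N.Normal] (h : Hyp 2 N)
    (hcore : ∀ K : Subgroup G, K.Normal → IsPGroup 2 K → K ≤ N) : ¬ 2 ∣ N.index := by
  intro hdvd
  have : Fact (Nat.Prime 2) := ⟨Nat.prime_two⟩
  have hcardQ : 2 ∣ Nat.card (G ⧸ N) := hdvd
  obtain ⟨yb, hyb⟩ := exists_prime_orderOf_dvd_card' 2 hcardQ
  have hO : ∀ K : Subgroup (G ⧸ N), K.Normal → IsPGroup 2 K → yb ∉ K := by
    intro K hK hK2 hy
    have h1 : IsPGroup 2 (K.comap (QuotientGroup.mk' N)) := by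
      apply hK2.comap_of_ker_isPGroup
      rw [QuotientGroup.ker_mk']
      exact h.pN
    have h2 : (K.comap (QuotientGroup.mk' N)).Normal := hK.comap _
    have h3 := hcore _ h2 h1
    obtain ⟨y, rfl⟩ := QuotientGroup.mk_surjective yb
    have h4 : y ∈ N := h3 (by simpa using hy)
    have h5 : (y : G ⧸ N) = 1 := (QuotientGroup.eq_one_iff _).2 h4
    rw [h5, orderOf_one] at hyb
    omega
  obtain ⟨hb, hb1, hbodd, hbinv⟩ := Cfsg.Agent.S0200.result yb hyb hO
  obtain ⟨y, rfl⟩ := QuotientGroup.mk_surjective yb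
  obtain ⟨w, rfl⟩ := QuotientGroup.mk_surjective hb
  obtain ⟨i, m', hm'odd, how⟩ := Nat.exists_eq_two_pow_mul_odd (orderOf_pos w).ne'
  obtain ⟨u, hu⟩ : ∃ u, u = w ^ (2 ^ i) := ⟨_, rfl⟩
  have hum : u ^ m' = 1 := by rw [hu, ← pow_mul, ← how, pow_orderOf_eq_one]
  have huodd : Odd (orderOf u) := Odd.of_dvd_nat hm'odd (orderOf_dvd_of_pow_eq_one hum)
  have huq : (u : G ⧸ N) = (w : G ⧸ N) ^ (2 ^ i) := by rw [hu, QuotientGroup.mk_pow]
  have huN : u ∉ N := by
    intro hc
    have h1 : (w : G ⧸ N) ^ (2 ^ i) = 1 := by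
      rw [← huq]
      exact (QuotientGroup.eq_one_iff _).2 hc
    have h2 : orderOf (w : G ⧸ N) ∣ 2 ^ i := orderOf_dvd_of_pow_eq_one h1
    have h3 : (orderOf (w : G ⧸ N)).Coprime (2 ^ i) :=
      Nat.Coprime.pow_right i (Nat.coprime_two_right.mpr hbodd)
    exact hb1 (orderOf_eq_one_iff.mp (Nat.Coprime.eq_one_of_dvd h3 h2))
  have hu1 : u ≠ 1 := fun hc => huN (hc ▸ N.one_mem)
  have hk : y * u * y⁻¹ * u ∈ N := by
    rw [← QuotientGroup.eq_one_iff]
    simp only [QuotientGroup.mk_mul, QuotientGroup.mk_inv, huq]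
    have e : (y : G ⧸ N) * (w : G ⧸ N) ^ (2 ^ i) * (y : G ⧸ N)⁻¹ = ((w : G ⧸ N) ^ (2 ^ i))⁻¹ := by
      rw [← conj_pow, hbinv, inv_pow]
    rw [e]
    simp
  have hfu := h.fpf hu1 (Nat.coprime_two_right.mpr huodd)
  have hu1' : u⁻¹ ≠ 1 := by simpa using hu1
  have hfu' := h.fpf hu1' (by rw [orderOf_inv]; exact Nat.coprime_two_right.mpr huodd)
  obtain ⟨n, hn, hnk⟩ := exists_twist N u⁻¹ hfu' _ (N.inv_mem hk)
  obtain ⟨t, ht⟩ : ∃ t, t = n * y := ⟨_, rfl⟩
  have htu : t * u * t⁻¹ = u⁻¹ := by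
    calc t * u * t⁻¹ = n * (y * u * y⁻¹ * u) * (u⁻¹ * n⁻¹ * u⁻¹⁻¹) * u⁻¹ := by rw [ht]; group
      _ = (y * u * y⁻¹ * u) * n * (u⁻¹ * n⁻¹ * u⁻¹⁻¹) * u⁻¹ := by rw [h.ab n hn _ hk]
      _ = (y * u * y⁻¹ * u) * (n * (u⁻¹ * n⁻¹ * u⁻¹⁻¹)) * u⁻¹ := by simp only [mul_assoc]
      _ = u⁻¹ := by rw [hnk]; group
  have hyN : y ∉ N := by
    intro hc
    have h5 : (y : G ⧸ N) = 1 := (QuotientGroup.eq_one_iff _).2 hc
    rw [h5, orderOf_one] at hyb
    omega
  have htN : t ∉ N := by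
    intro hc
    apply hyN
    have := N.mul_mem (N.inv_mem hn) hc
    simpa [ht] using this
  have ht2N : t * t ∈ N := by
    rw [← QuotientGroup.eq_one_iff, ht]
    simp only [QuotientGroup.mk_mul, (QuotientGroup.eq_one_iff n).2 hn, one_mul]
    rw [← pow_two, ← hyb, pow_orderOf_eq_one]
  have ht2 : t * t = 1 := by
    apply hfu _ ht2N
    have e2 : u⁻¹ * t = t * u := by
      rw [← htu]; group
    have e1 : u * t = t * u⁻¹ := by
      have e3 : t * u⁻¹ * t⁻¹ = u := by
        have := congrArg Inv.inv htu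
        simpa [mul_assoc] using this
      conv_lhs => rw [← e3]
      group
    calc u * (t * t) * u⁻¹ = (u * t) * t * u⁻¹ := by group
      _ = t * (u⁻¹ * t) * u⁻¹ := by rw [e1]; group
      _ = t * (t * u) * u⁻¹ := by rw [e2]
      _ = t * t := by group
  apply htN
  apply h.centralizer_le hcore
  rw [Subgroup.mem_centralizer_iff]
  intro a ha
  have ha' : a ∈ N := ha
  obtain ⟨x, hx⟩ := h.cam t htN a ha'
  have e : (t * a) * (t * a) = 1 := by
    rw [← hx]
    calc x * t * x⁻¹ * (x * t * x⁻¹) = x * (t * t) * x⁻¹ := by group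
      _ = 1 := by rw [ht2]; group
  have ha2 : a * a = 1 := by
    have := h.ex a ha'
    rwa [pow_two] at this
  calc a * t = (t * t) * a * t * (a * a) := by rw [ht2, ha2]; group
    _ = t * ((t * a) * (t * a)) * a := by group
    _ = t * a := by rw [e]; group

lemma Hyp.not_dvd_index (h : Hyp p N)
    (hcore : ∀ K : Subgroup G, K.Normal → IsPGroup p K → K ≤ N) : ¬ p ∣ N.index := by
  by_cases hp2 : p = 2
  · subst hp2
    exact h.two_case hcore
  · exact h.odd_case hp2 hcore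

lemma Hyp.frobenius (h : Hyp p N) (hG : 2 < Nat.card G) (hnd : ¬ p ∣ N.index) :
    ∃ H : Subgroup G, Cfsg.IsFrobeniusComplement H ∧ Cfsg.frobeniusKernel H = (N : Set G) ∧
      Nat.card H + 1 = Nat.card N := by
  classical
  have hpi : Nat.Coprime p N.index := (Nat.Prime.coprime_iff_not_dvd hp.out).2 hnd
  have hCN : ∀ x ∈ N, x ≠ 1 → ∀ g : G, g * x = x * g → g ∈ N := by
    intro x hx hx1 g hg
    have hmem : g ∈ Subgroup.centralizer ({x} : Set G) := by
      rw [Subgroup.mem_centralizer_singleton_iff]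
      exact hg
    obtain ⟨k, hk⟩ := h.cent x hx hx1 ⟨g, hmem⟩
    have hk' : g ^ (p ^ k) = 1 := by
      have := congrArg Subtype.val hk
      simpa using this
    have h1 : (g : G ⧸ N) ^ (p ^ k) = 1 := by
      rw [← QuotientGroup.mk_pow, hk']
      rfl
    have h2 : orderOf (g : G ⧸ N) ∣ p ^ k := orderOf_dvd_of_pow_eq_one h1
    have h3 : orderOf (g : G ⧸ N) ∣ N.index := orderOf_dvd_natCard _
    have h4 : orderOf (g : G ⧸ N) = 1 :=
      Nat.Coprime.eq_one_of_dvd ((Nat.Coprime.pow_left k hpi).symm.coprime_dvd_left h3) h2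
    exact (QuotientGroup.eq_one_iff g).1 (orderOf_eq_one_iff.mp h4)
  have hcop : Nat.Coprime (Nat.card N) N.index := by
    obtain ⟨n, hn⟩ := IsPGroup.iff_card.mp h.pN
    rw [hn]
    exact Nat.Coprime.pow_left n hpi
  obtain ⟨H, hH⟩ := Subgroup.exists_right_complement'_of_coprime hcop
  have hdisj : ∀ a, a ∈ N → a ∈ H → a = 1 := by
    intro a ha hb
    have := hH.disjoint.le_bot (Subgroup.mem_inf.2 ⟨ha, hb⟩)
    simpa using this
  have hdec : ∀ g : G, ∃ n ∈ N, ∃ k ∈ H, g = n * k := by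
    intro g
    obtain ⟨⟨n, k⟩, hnk, -⟩ := Subgroup.IsComplement.existsUnique hH g
    exact ⟨n, n.2, k, k.2, hnk.symm⟩
  obtain ⟨x, hx, hx1⟩ := h.exists_ne
  have hcard : Nat.card H + 1 = Nat.card N := by
    let f : Option H → N := fun o => match o with
      | none => 1
      | some k => ⟨(k : G) * x * (k : G)⁻¹, ‹N.Normal›.conj_mem x hx k⟩
    have hf : Function.Bijective f := by
      constructor
      · intro a b hab
        rcases a with _ | a <;> rcases b with _ | b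
        · rfl
        · exfalso
          have e : (1 : G) = (b : G) * x * (b : G)⁻¹ := congrArg Subtype.val hab
          apply hx1
          have : x = (b : G)⁻¹ * ((b : G) * x * (b : G)⁻¹) * b := by group
          rw [this, ← e]; group
        · exfalso
          have e : (a : G) * x * (a : G)⁻¹ = 1 := congrArg Subtype.val hab
          apply hx1
          have : x = (a : G)⁻¹ * ((a : G) * x * (a : G)⁻¹) * a := by group
          rw [this, e]; group
        · have e : (a : G) * x * (a : G)⁻¹ = (b : G) * x * (b : G)⁻¹ := congrArg Subtype.val hab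
          have e2 : ((b : G)⁻¹ * a) * x = x * ((b : G)⁻¹ * a) := by
            calc ((b : G)⁻¹ * a) * x = (b : G)⁻¹ * ((a : G) * x * (a : G)⁻¹) * a := by group
              _ = (b : G)⁻¹ * ((b : G) * x * (b : G)⁻¹) * a := by rw [e]
              _ = x * ((b : G)⁻¹ * a) := by group
          have e3 := hdisj _ (hCN x hx hx1 _ e2) (H.mul_mem (H.inv_mem b.2) a.2)
          congr 1
          apply Subtype.ext
          exact (inv_mul_eq_one.mp e3).symm
      · intro y
        by_cases hy : (y : G) = 1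
        · exact ⟨none, Subtype.ext hy.symm⟩
        · obtain ⟨g, hg⟩ := h.conj x hx y y.2 hx1 hy
          obtain ⟨n, hn, k, hk, rfl⟩ := hdec g
          refine ⟨some ⟨k, hk⟩, Subtype.ext ?_⟩
          change k * x * k⁻¹ = y
          rw [← hg]
          have hc : k * x * k⁻¹ ∈ N := ‹N.Normal›.conj_mem x hx k
          calc k * x * k⁻¹ = (k * x * k⁻¹) * n * n⁻¹ := by group
            _ = n * (k * x * k⁻¹) * n⁻¹ := by rw [h.ab _ hc n hn]
            _ = n * k * x * (n * k)⁻¹ := by group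
    rw [← Nat.card_congr (Equiv.ofBijective f hf), Finite.card_option]
  refine ⟨H, ⟨?_, ?_, ?_⟩, ?_, hcard⟩
  · rintro rfl
    have h1 := hH.card_mul_card
    simp only [Subgroup.card_bot] at h1 hcard
    omega
  · rintro rfl
    exact hx1 (hdisj x hx (Subgroup.mem_top x))
  · intro g hg
    rw [Subgroup.eq_bot_iff_forall]
    intro a ha
    obtain ⟨ha1, ha2⟩ := Subgroup.mem_inf.1 ha
    obtain ⟨b, hb, hba⟩ := (Subgroup.mem_smul_pointwise_iff_exists _ _ _).1 ha2
    have hba' : g * b * g⁻¹ = a := by simpa [MulAut.smul_def] using hba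
    obtain ⟨n, hn, k, hk, rfl⟩ := hdec g
    have hn1 : n ≠ 1 := by
      rintro rfl
      apply hg
      simpa using hk
    have hb' : k * b * k⁻¹ ∈ H := H.mul_mem (H.mul_mem hk hb) (H.inv_mem hk)
    have e1 : a = n * (k * b * k⁻¹) * n⁻¹ := by rw [← hba']; group
    have e2 : a * (k * b * k⁻¹)⁻¹ = 1 := by
      apply hdisj
      · rw [e1]
        have : n * (k * b * k⁻¹) * n⁻¹ * (k * b * k⁻¹)⁻¹ =
            n * ((k * b * k⁻¹) * n⁻¹ * (k * b * k⁻¹)⁻¹) := by group
        rw [this]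
        exact N.mul_mem hn (‹N.Normal›.conj_mem _ (N.inv_mem hn) _)
      · exact H.mul_mem ha1 (H.inv_mem hb')
    have e3 : a = k * b * k⁻¹ := mul_inv_eq_one.mp e2
    rw [← e3] at e1
    have e4 : a * n = n * a := by
      conv_lhs => rw [e1]
      group
    exact hdisj a (hCN n hn hn1 a e4) ha1
  · ext y
    constructor
    · rintro (rfl | hy)
      · exact N.one_mem
      · by_contra hyN
        have hyN' : y ∉ N := hyN
        obtain ⟨n, hn, k, hk, rfl⟩ := hdec y
        have hk1 : k ≠ 1 := by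
          rintro rfl
          apply hyN'
          simpa using hn
        have hfk : ∀ m ∈ N, k * m * k⁻¹ = m → m = 1 := by
          intro m hm hfix
          by_contra hm1
          apply hk1
          apply hdisj k _ hk
          apply hCN m hm hm1
          rw [mul_inv_eq_iff_eq_mul] at hfix
          exact hfix
        obtain ⟨m, hm, hmn⟩ := exists_twist N k hfk n hn
        apply hy m
        rw [Subgroup.mem_smul_pointwise_iff_exists]
        refine ⟨k, hk, ?_⟩
        rw [MulAut.smul_def, MulAut.conj_apply, ← hmn]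
        group
    · intro hy
      have hy' : y ∈ N := hy
      by_cases hy1 : y = 1
      · exact Or.inl hy1
      · right
        intro g hg
        obtain ⟨b, hb, hby⟩ := (Subgroup.mem_smul_pointwise_iff_exists _ _ _).1 hg
        have hby' : g * b * g⁻¹ = y := by simpa [MulAut.smul_def] using hby
        have hbN : b ∈ N := by
          have : b = g⁻¹ * y * g⁻¹⁻¹ := by rw [← hby']; group
          rw [this]
          exact ‹N.Normal›.conj_mem y hy' g⁻¹
        have hb1 := hdisj b hbN hb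
        apply hy1
        rw [← hby', hb1]
        group

end Cfsg.Agent.Lib.Helper29.Gagola
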