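import Mathlib

set_option autoImplicit false

/-! Bridging abstract actions `φ : A →* MulAut K` and the "ambient" form (subgroups of a common group):
inside `K ⋊[φ] A`. -/

namespace Cfsg.Agent.Lib.Helper29

open SemidirectProduct

section
variable {K A : Type*} [Group K] [Group A] (φ : A →* MulAut K)

/-- The copy of `K` inside `K ⋊[φ] A`. -/
def sdK : Subgroup (K ⋊[φ] A) := (inl : K →* K ⋊[φ] A).range

/-- The copy of `A` inside `K ⋊[φ] A`. -/
def sdA : Subgroup (K ⋊[φ] A) := (inr : A →* K ⋊[φ] A).range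

theorem sdK_normal : (sdK φ).Normal := by
  have : sdK φ = (rightHom : K ⋊[φ] A →* A).ker := range_inl_eq_ker_rightHom
  rw [this]; infer_instance

theorem finite_semidirectProduct [Finite K] [Finite A] : Finite (K ⋊[φ] A) :=
  Finite.of_equiv _ equivProd.symm

/-- `K ≃* sdK φ`. -/
noncomputable def sdKEquiv : K ≃* sdK φ := MonoidHom.ofInjective (inl_injective (φ := φ))

/-- `A ≃* sdA φ`. -/
noncomputable def sdAEquiv : A ≃* sdA φ := MonoidHom.ofInjective (inr_injective (φ := φ))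

theorem card_sdK : Nat.card (sdK φ) = Nat.card K := Nat.card_congr (sdKEquiv φ).symm.toEquiv

theorem card_sdA : Nat.card (sdA φ) = Nat.card A := Nat.card_congr (sdAEquiv φ).symm.toEquiv

theorem inl_mem_sdK (k : K) : (inl k : K ⋊[φ] A) ∈ sdK φ := ⟨k, rfl⟩

theorem inr_mem_sdA (a : A) : (inr a : K ⋊[φ] A) ∈ sdA φ := ⟨a, rfl⟩

theorem sdA_le_normalizer_sdK : sdA φ ≤ Subgroup.normalizer (sdK φ : Set (K ⋊[φ] A)) := by
  haveI := sdK_normal φ
  rw [Subgroup.normalizer_eq_top]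
  exact le_top

theorem isPGroup_sdK {p : ℕ} (h : IsPGroup p K) : IsPGroup p (sdK φ) := h.of_equiv (sdKEquiv φ)

theorem inr_mul_inl_mul_inr_inv (a : A) (k : K) :
    (inr a * inl k * (inr a)⁻¹ : K ⋊[φ] A) = inl (φ a k) := by
  rw [inl_aut, map_inv]

/-- `inl k` centralizes the copy of `A` iff `k` is fixed by `A`. -/
theorem inl_mem_centralizer_sdA_iff (k : K) :
    (inl k : K ⋊[φ] A) ∈ Subgroup.centralizer (sdA φ : Set (K ⋊[φ] A)) ↔ ∀ a, φ a k = k := by
  rw [Subgroup.mem_centralizer_iff]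
  constructor
  · intro h a
    have h3 := h (inr a) (inr_mem_sdA φ a)
    have h4 : (inl (φ a k) : K ⋊[φ] A) = inl k := by
      rw [← inr_mul_inl_mul_inr_inv, h3, mul_inv_cancel_right]
    exact inl_injective h4
  · rintro h _ ⟨a, rfl⟩
    have h4 := inr_mul_inl_mul_inr_inv φ a k
    rw [h a] at h4
    calc (inr a * inl k : K ⋊[φ] A) = inr a * inl k * (inr a)⁻¹ * inr a := by group
      _ = inl k * inr a := by rw [h4]

/-- The image in `K ⋊[φ] A` of a subgroup of `K`. -/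
def sdMap (H : Subgroup K) : Subgroup (K ⋊[φ] A) := H.map (inl : K →* K ⋊[φ] A)

theorem mem_sdMap_iff (H : Subgroup K) (k : K) : (inl k : K ⋊[φ] A) ∈ sdMap φ H ↔ k ∈ H :=
  Subgroup.mem_map_iff_mem inl_injective

theorem sdMap_le_sdK (H : Subgroup K) : sdMap φ H ≤ sdK φ := by
  rintro _ ⟨k, _, rfl⟩
  exact ⟨k, rfl⟩

theorem sdMap_top : sdMap φ ⊤ = sdK φ := by
  unfold sdMap sdK
  rw [MonoidHom.range_eq_map]

theorem card_sdMap (H : Subgroup K) : Nat.card (sdMap φ H) = Nat.card H :=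
  Subgroup.card_map_of_injective inl_injective

/-- `A` normalizes the image of an `A`-invariant subgroup. -/
theorem sdA_le_normalizer_sdMap (H : Subgroup K) (hH : ∀ a, ∀ x ∈ H, φ a x ∈ H) :
    sdA φ ≤ Subgroup.normalizer (sdMap φ H : Set (K ⋊[φ] A)) := by
  rw [Subgroup.le_normalizer_iff]
  rintro _ ⟨a, rfl⟩ _ ⟨k, hk, rfl⟩
  rw [inr_mul_inl_mul_inr_inv]
  exact (mem_sdMap_iff φ H _).mpr (hH a k hk)

end

end Cfsg.Agent.Lib.Helper29
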