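import Cfsg.Agent.Lib.Helper68.RO.Defs
import Cfsg.Agent.Lib.Helper68.FR.Basic
import Cfsg.Agent.Lib.Helper80.Inflation

/-!
# Pieces B1c and B3i of the real/odd-degree farm
-/

set_option autoImplicit false

namespace Cfsg.Agent.Lib.Helper29.RO

open Cfsg Cfsg.Agent.Lib Cfsg.Agent.Lib.Helper15 Cfsg.Agent.Lib.Helper68.RO
open scoped ComplexConjugate

variable {G : Type*} [Group G] [Fintype G] (M : Subgroup G) [M.Normal] [Fintype M]

omit [Fintype G] in
/-- PIECE B1c. -/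
theorem under_of_lam_rel (P : Subgroup G) {X : Subgroup G}
    (hNX : Subgroup.normalizer (P : Set G) ≤ X) (hMX : M ≤ X) {χ : X → ℂ}
    (hχ : IsIrrCharacter X χ)
    (a b : Lam M P) (hab : (lamSetoid M P).r a b)
    (ha : classInner (resFun hMX χ) (a.1 : M → ℂ) ≠ 0) :
    classInner (resFun hMX χ) (b.1 : M → ℂ) ≠ 0 := by
  obtain ⟨n, hn, h⟩ := hab
  rw [h]
  have hinv : cj M n (resFun hMX χ) = resFun hMX χ := by
    funext x
    exact irr_cf hχ ⟨(x : G), hMX x.2⟩ ⟨n, hNX hn⟩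
  have h2 := classInner_cj_cj M n (resFun hMX χ) (a.1 : M → ℂ)
  rw [hinv] at h2
  rw [h2]
  exact ha

/-- PIECE B3i, with the parity lemma PL (for the group `P`) as a hypothesis. -/
theorem hasRealExt_of_over_aux (P : Sylow 2 G) [Fintype ↥(P : Subgroup G)]
    (PL : ∀ {Φ : ↥(P : Subgroup G) → ℂ}, IsCharacter ↥(P : Subgroup G) Φ → RealOdd Φ →
      ∃ χ : ↥(P : Subgroup G) → ℂ, IsIrrCharacter ↥(P : Subgroup G) χ ∧ RealOdd χ ∧
        classInner Φ χ ≠ 0)
    {T : Subgroup G} (hMP : M ≤ (P : Subgroup G))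
    (hPT : (P : Subgroup G) ≤ T) {lam : M → ℂ} (hlam : IsIrrCharacter M lam)
    (hinv : ∀ t ∈ T, cj M t lam = lam) {χ : T → ℂ} (hχ : IsIrrCharacter T χ) (hro : RealOdd χ)
    (hover : classInner (resFun (hMP.trans hPT) χ) lam ≠ 0) : HasRealExt hMP lam := by
  haveI : Fintype T := Fintype.ofFinite T
  have hΦ : IsCharacter (P : Subgroup G) (resFun hPT χ) := char_resFun hPT (irr_char hχ)
  have hΦro : RealOdd (resFun hPT χ) := ⟨fun g => hro.1 _, hro.2⟩
  obtain ⟨μ, hμ, hμro, hμΦ⟩ := PL hΦ hΦro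
  -- `μ` is linear
  have hdvd : charDegree μ ∣ Nat.card (P : Subgroup G) :=
    Helper78.irr_charDegree_dvd_card ⟨μ, hμ⟩
  have hdeg : charDegree μ = 1 := by
    obtain ⟨k, hk⟩ := (IsPGroup.iff_card.1 P.isPGroup')
    rw [hk] at hdvd
    obtain ⟨j, -, hj⟩ := (Nat.dvd_prime_pow Nat.prime_two).1 hdvd
    have hodd := hμro.2
    rw [hj] at hodd ⊢
    rcases Nat.eq_zero_or_pos j with rfl | hj0
    · simp
    · exfalso
      have : Even (2 ^ j) := (Nat.even_pow.2 ⟨even_two, hj0.ne'⟩)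
      exact (Nat.not_odd_iff_even.2 this) hodd
  have hμ1 : μ 1 = 1 := by
    rw [Helper80.char_one_eq_charDegree (irr_char hμ), hdeg]; simp
  -- the restriction of `χ` to `M`
  have hres : resFun (hMP.trans hPT) χ = classInner (resFun (hMP.trans hPT) χ) lam • lam :=
    rel_restrict_eq_smul (hMP.trans hPT) hχ hlam hover (fun k => hinv k k.2)
  have hres' : resFun hMP (resFun hPT χ) = classInner (resFun (hMP.trans hPT) χ) lam • lam :=
    hres
  have hov : classInner (resFun hMP μ) lam ≠ 0 :=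
    Helper68.FR.over_of_constituent hMP hlam hΦ hres' hμ hμΦ
  have hirr : IsIrrCharacter M (resFun hMP μ) :=
    irr_of_linear (char_resFun hMP (irr_char hμ)) hμ1
  exact ⟨μ, hμ, hμro.1, irr_eq_of_inner_ne_zero hirr hlam hov⟩

end Cfsg.Agent.Lib.Helper29.RO
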