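import Cfsg.Agent.Lib.Helper68.RO.Defs
import Cfsg.Agent.Lib.Helper80.Inflation

/-!
# Pieces R0 and A2 of the real/odd-degree farm
-/

set_option autoImplicit false

namespace Cfsg.Agent.Lib.Helper29.RO

open Cfsg Cfsg.Agent.Lib Cfsg.Agent.Lib.Helper15 Cfsg.Agent.Lib.Helper68.RO
open scoped ComplexConjugate

/-- PIECE R0. -/
theorem r_congr {X Y : Type*} [Group X] [Group Y] (e : X ≃* Y) : r X = r Y := by
  unfold r
  refine (Nat.card_congr ?_).symm
  refine Equiv.subtypeEquiv (Helper80.irrCongr e) ?_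
  intro ψ
  unfold RealOdd charDegree
  constructor
  · rintro ⟨h1, h2⟩
    refine ⟨fun g => ?_, ?_⟩
    · rw [Helper80.irrCongr_apply]; exact h1 _
    · rw [Helper80.irrCongr_apply, map_one]; exact h2
  · rintro ⟨h1, h2⟩
    refine ⟨fun g => ?_, ?_⟩
    · have := h1 (e.symm g)
      rw [Helper80.irrCongr_apply, MulEquiv.apply_symm_apply] at this
      exact this
    · rw [Helper80.irrCongr_apply, map_one] at h2; exact h2

/-- PIECE A2. -/
theorem r_quot_of_ker {X : Type*} [Group X] [Finite X] (K : Subgroup X) [K.Normal]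
    (hK : ∀ χ : X → ℂ, IsIrrCharacter X χ → RealOdd χ → ∀ k ∈ K, χ k = χ 1) :
    r X = r (X ⧸ K) := by
  unfold r
  refine (Nat.card_congr ?_).symm
  have key : ∀ ψ : IrrCharacter (X ⧸ K),
      RealOdd (ψ : X ⧸ K → ℂ) ↔ RealOdd ((Helper80.inflateEquiv K ψ).1 : X → ℂ) := by
    intro ψ
    unfold RealOdd charDegree
    constructor
    · rintro ⟨h1, h2⟩
      refine ⟨fun g => ?_, ?_⟩
      · rw [Helper80.inflateEquiv_apply]; exact h1 _
      · rw [Helper80.inflateEquiv_apply]; exact h2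
    · rintro ⟨h1, h2⟩
      refine ⟨fun g => ?_, ?_⟩
      · obtain ⟨x, rfl⟩ := QuotientGroup.mk_surjective g
        have := h1 x
        rw [Helper80.inflateEquiv_apply] at this
        exact this
      · rw [Helper80.inflateEquiv_apply] at h2; exact h2
  refine Equiv.ofBijective
    (fun ψ => ⟨(Helper80.inflateEquiv K ψ.1).1, (key ψ.1).1 ψ.2⟩) ⟨?_, ?_⟩
  · intro a b hab
    have h1 : (Helper80.inflateEquiv K a.1).1 = (Helper80.inflateEquiv K b.1).1 :=
      congrArg (fun z : {χ : IrrCharacter X // RealOdd (χ : X → ℂ)} => z.1) hab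
    exact Subtype.ext ((Helper80.inflateEquiv K).injective (Subtype.ext h1))
  · rintro ⟨χ, hχ⟩
    obtain ⟨ψ, hψ⟩ := (Helper80.inflateEquiv K).surjective ⟨χ, hK χ.1 χ.2 hχ⟩
    have h1 : (Helper80.inflateEquiv K ψ).1 = χ := by rw [hψ]
    refine ⟨⟨ψ, (key ψ).2 (by rw [h1]; exact hχ)⟩, Subtype.ext h1⟩

end Cfsg.Agent.Lib.Helper29.RO
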